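import Mathlib
import Cfsg.Agent.H802.FusAlp
import Cfsg.Prelude.Def_PLocal
set_option linter.all false

-- part: H774/PolyNil
section
/-!
# A commutative algebra lemma about `(1+t)^p = 1`, `t` nilpotent (helper774)
-/

set_option autoImplicit false

namespace Cfsg.Agent.H774

open Polynomial

/-- `(1+t)^p = 1 + t^p + p t (1 + t c)` in any commutative ring. -/
theorem exists_one_add_pow_eq {A : Type*} [CommRing A] {p : ℕ} (hp : p.Prime) (t : A) :
    ∃ c : A, (1 + t) ^ p = 1 + t ^ p + p * t * (1 + t * c) := by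
  obtain ⟨r, hr⟩ := exists_add_pow_prime_eq hp (X : ℤ[X]) 1
  have h0 : r.coeff 0 = 1 := by
    have h1 := congrArg (fun f : ℤ[X] => f.coeff 1) hr
    have h2 : ((X + 1 : ℤ[X]) ^ p).coeff 1 = p := by
      rw [Polynomial.coeff_X_add_one_pow]
      simp
    have h3 : ((X : ℤ[X]) ^ p).coeff 1 = 0 := by
      rw [Polynomial.coeff_X_pow, if_neg]
      exact hp.one_lt.ne
    have h4 : ((p : ℤ[X]) * X * 1 * r).coeff 1 = p * r.coeff 0 := by
      have : ((p : ℤ[X]) * X * 1 * r) = X * (C (p : ℤ) * r) := by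
        simp; ring
      rw [this, Polynomial.coeff_X_mul, Polynomial.coeff_C_mul]
    simp only [Polynomial.coeff_add, one_pow] at h1
    rw [h2, h3, h4] at h1
    have h5 : (1 : ℤ[X]).coeff 1 = 0 := by
      rw [Polynomial.coeff_one]; simp
    rw [h5] at h1
    have hp0 : (p : ℤ) ≠ 0 := by exact_mod_cast hp.ne_zero
    have h6 : (p : ℤ) * r.coeff 0 = p * 1 := by linarith
    exact mul_left_cancel₀ hp0 h6
  have h7 : r = 1 + X * r.divX := by
    conv_lhs => rw [← Polynomial.X_mul_divX_add r, h0]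
    simp; ring
  refine ⟨aeval t r.divX, ?_⟩
  have h8 := congrArg (aeval t) hr
  rw [h7] at h8
  simp only [map_pow, map_add, map_mul, aeval_X, map_one, one_pow, mul_one, map_natCast] at h8
  rw [add_comm 1 t, h8]
  ring_nf

/-- If `(1+t)^p = 1` and `t^(n(p-1)+1) = 0` then `p^n t = 0`. -/
theorem pow_mul_eq_zero {A : Type*} [CommRing A] {p : ℕ} (hp : p.Prime) (n : ℕ) (t : A)
    (h1 : (1 + t) ^ p = 1) (h2 : t ^ (n * (p - 1) + 1) = 0) : (p : A) ^ n * t = 0 := by
  obtain ⟨c, hc⟩ := exists_one_add_pow_eq hp t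
  have hnil : IsNilpotent (t * c) := by
    have : IsNilpotent t := ⟨_, h2⟩
    exact (Commute.all t c).isNilpotent_mul_right this
  have hu : IsUnit (1 + t * c) := hnil.isUnit_one_add
  have h3 : (p : A) * t * (1 + t * c) = - t ^ p := by
    have : t ^ p + p * t * (1 + t * c) = 0 := by
      have := h1.symm.trans hc
      linear_combination -this
    linear_combination this
  have key : ∀ k ≤ n, (p : A) ^ k * t ^ ((n - k) * (p - 1) + 1) = 0 := by
    intro k
    induction k with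
    | zero => intro _; simpa using h2
    | succ k ih =>
      intro hk
      have ihk := ih (by omega)
      have hp2 := hp.two_le
      have e1 : (n - k) * (p - 1) + 1 = (n - (k + 1)) * (p - 1) + p := by
        have : n - k = (n - (k + 1)) + 1 := by omega
        rw [this]
        have : ((n - (k + 1)) + 1) * (p - 1) = (n - (k + 1)) * (p - 1) + (p - 1) := by ring
        rw [this]
        omega
      rw [e1] at ihk
      have h4 : (p : A) ^ (k + 1) * t ^ ((n - (k + 1)) * (p - 1) + 1) * (1 + t * c) = 0 := by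
        calc (p : A) ^ (k + 1) * t ^ ((n - (k + 1)) * (p - 1) + 1) * (1 + t * c)
            = (p : A) ^ k * t ^ ((n - (k + 1)) * (p - 1)) * ((p : A) * t * (1 + t * c)) := by ring
          _ = - ((p : A) ^ k * t ^ ((n - (k + 1)) * (p - 1) + p)) := by rw [h3]; ring
          _ = 0 := by rw [ihk]; simp
      exact (hu.mul_left_eq_zero).1 h4
  have := key n le_rfl
  simpa using this

/-- The action form: if `f` is an additive endomorphism of `V`, `f^p y = y` and
`(f-1)^(n(p-1)+1) y = 0`, then `p^n • f y = p^n • y`. -/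
theorem end_smul_eq {V : Type*} [AddCommGroup V] {p : ℕ} (hp : p.Prime) (n : ℕ)
    (f : Module.End ℤ V) (y : V) (h1 : (f ^ p) y = y)
    (h2 : ((f - 1) ^ (n * (p - 1) + 1)) y = 0) : p ^ n • f y = p ^ n • y := by
  let I : Ideal ℤ[X] :=
    { carrier := {g | (aeval f g) y = 0}
      add_mem' := by
        intro a b ha hb
        simp only [Set.mem_setOf_eq] at *
        rw [map_add, LinearMap.add_apply, ha, hb, add_zero]
      zero_mem' := by simp
      smul_mem' := by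
        intro c a ha
        simp only [Set.mem_setOf_eq] at *
        rw [smul_eq_mul, map_mul, Module.End.mul_apply, ha, map_zero] }
  have hI : ∀ g : ℤ[X], g ∈ I ↔ (aeval f g) y = 0 := fun g => Iff.rfl
  have hA := pow_mul_eq_zero (A := ℤ[X] ⧸ I) hp n (Ideal.Quotient.mk I (X - 1)) ?_ ?_
  · have h3 : (Ideal.Quotient.mk I) ((p : ℤ[X]) ^ n * (X - 1)) = 0 := by
      rw [map_mul, map_pow, map_natCast]
      exact hA
    rw [Ideal.Quotient.eq_zero_iff_mem, hI] at h3
    rw [map_mul, map_pow, map_natCast, Module.End.mul_apply] at h3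
    have h4 : (aeval f (X - 1 : ℤ[X])) y = f y - y := by
      simp
    rw [h4] at h3
    have h5 : ((p : Module.End ℤ V) ^ n) (f y - y) = p ^ n • (f y - y) := by
      have : ((p : Module.End ℤ V) ^ n) = ((p ^ n : ℕ) : Module.End ℤ V) := by push_cast; rfl
      rw [this, Module.End.natCast_apply]
    rw [h5, smul_sub] at h3
    exact sub_eq_zero.1 h3
  · have : (1 : ℤ[X] ⧸ I) + (Ideal.Quotient.mk I) (X - 1) = Ideal.Quotient.mk I X := by
      rw [map_sub, map_one]; ring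
    rw [this, ← map_pow, ← map_one (Ideal.Quotient.mk I), Ideal.Quotient.mk_eq_mk_iff_sub_mem, hI]
    simp [h1]
  · rw [← map_pow, Ideal.Quotient.eq_zero_iff_mem, hI]
    simpa using h2

end Cfsg.Agent.H774
end

-- part: H774/SylFix
section
/-!
# Sylow intersections and fixed points (helper774)

Three elementary facts about a finite group `G` and its Sylow `p`-subgroups, used for the theorems of Glauberman
on weakly closed elements.
-/

set_option autoImplicit false

namespace Cfsg.Agent.H774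

open scoped Pointwise

/-- Let `x` be fixed by a Sylow `p`-subgroup `P` of `G`, let `T` be a `p`-subgroup and `f` an equivariant map.
If for all `g` such that `T` does not fix `g • x`, some element of `T` does not fix `g • x` but fixes
`f (g • x)`, then `T` fixes all `f (g • x)`. -/
theorem sylow_fix {G X Y : Type*} [Group G] [Finite G] [MulAction G X] [MulAction G Y] {p : ℕ}
    [Fact p.Prime] (P : Sylow p G) (T : Subgroup G) (hT : IsPGroup p T) (f : X → Y)
    (hf : ∀ (g : G) (x : X), f (g • x) = g • f x) (x : X) (hx : ∀ g ∈ (P : Subgroup G), g • x = x)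
    (H : ∀ g : G, (∃ t ∈ T, t • g • x ≠ g • x) →
      ∃ a ∈ T, a • g • x ≠ g • x ∧ a • f (g • x) = f (g • x)) :
    ∀ g : G, ∀ t ∈ T, t • f (g • x) = f (g • x) := by
  intro g t ht
  set z := f (g • x) with hz
  set C := MulAction.stabilizer G z with hC
  have hPg : ((g • P : Sylow p G) : Subgroup G) ≤ C := by
    intro h hh
    rw [Sylow.coe_subgroup_smul, Subgroup.mem_pointwise_smul_iff_inv_smul_mem] at hh
    rw [hC, MulAction.mem_stabilizer_iff, hz, ← hf]
    have h1 := hx _ hh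
    have h2 : (((MulAut.conj g)⁻¹ • h : G)) = g⁻¹ * h * g := by
      simp [MulAut.smul_def, MulAut.conj_inv_apply]
    rw [h2, mul_smul, mul_smul, inv_smul_eq_iff] at h1
    rw [h1]
  have hR : IsPGroup p (T.subgroupOf C) := by
    have := hT.to_le (H := T ⊓ C) inf_le_left
    intro r
    obtain ⟨k, hk⟩ := hT ⟨(r : G), r.2⟩
    refine ⟨k, ?_⟩
    have h3 := congrArg Subtype.val hk
    apply Subtype.ext
    apply Subtype.ext
    simpa using h3
  obtain ⟨R', hR'⟩ := hR.exists_le_sylow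
  obtain ⟨c, hc⟩ := MulAction.exists_smul_eq C ((g • P : Sylow p G).subtype hPg) R'
  -- y = c g x
  have hcz : (c : G) • z = z := c.2
  have hy : f (((c : G) * g) • x) = z := by
    rw [mul_smul, hf, ← hz, hcz]
  have hfix : ∀ a ∈ T, a ∈ C → a • ((c : G) * g) • x = ((c : G) * g) • x := by
    intro a haT haC
    have h1 : (⟨a, haC⟩ : C) ∈ (R' : Subgroup C) := hR' haT
    rw [← hc, Sylow.coe_subgroup_smul, Subgroup.mem_pointwise_smul_iff_inv_smul_mem] at h1
    have h2 : (((MulAut.conj c)⁻¹ • (⟨a, haC⟩ : C) : C) : G) ∈ ((g • P : Sylow p G) : Subgroup G) := by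
      exact h1
    rw [Sylow.coe_subgroup_smul, Subgroup.mem_pointwise_smul_iff_inv_smul_mem] at h2
    have h3 : ((MulAut.conj g)⁻¹ • ((((MulAut.conj c)⁻¹ • (⟨a, haC⟩ : C) : C) : G)) : G) =
        ((c : G) * g)⁻¹ * a * ((c : G) * g) := by
      simp [MulAut.smul_def, MulAut.conj_inv_apply, mul_assoc]
    rw [h3] at h2
    have h4 := hx _ h2
    rw [mul_smul, mul_smul, inv_smul_eq_iff] at h4
    exact h4
  have hall : ∀ a ∈ T, a • ((c : G) * g) • x = ((c : G) * g) • x := by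
    by_contra hne
    push Not at hne
    obtain ⟨a, haT, ha1, ha2⟩ := H ((c : G) * g) hne
    rw [hy] at ha2
    exact ha1 (hfix a haT ha2)
  have h5 := hall t ht
  rw [← hy, ← hf, h5]

/-- If `U` is a subgroup of the Sylow `p`-subgroup `P`, `K` is normal and `a U a⁻¹ ≤ K P`, then
`(k⁻¹a) U (k⁻¹a)⁻¹ ≤ P` for some `k ∈ K`. -/
theorem exists_mem_conj_le {G : Type*} [Group G] [Finite G] {p : ℕ} [Fact p.Prime] (P : Sylow p G)
    (K : Subgroup G) [K.Normal] (U : Subgroup G) (hU : IsPGroup p U) (a : G)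
    (ha : ∀ u ∈ U, a * u * a⁻¹ ∈ K ⊔ (P : Subgroup G)) :
    ∃ k ∈ K, ∀ u ∈ U, (k⁻¹ * a) * u * (k⁻¹ * a)⁻¹ ∈ (P : Subgroup G) := by
  set L := K ⊔ (P : Subgroup G) with hL
  have hPL : (P : Subgroup G) ≤ L := le_sup_right
  set U' : Subgroup G := U.map (MulAut.conj a).toMonoidHom with hU'
  have hU'L : U' ≤ L := by
    rintro _ ⟨u, hu, rfl⟩
    exact ha u hu
  have hU'p : IsPGroup p (U'.subgroupOf L) := by
    have h1 : IsPGroup p U' := hU.map _
    intro r
    obtain ⟨k, hk⟩ := h1 ⟨(r : G), r.2⟩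
    refine ⟨k, ?_⟩
    have h3 := congrArg Subtype.val hk
    apply Subtype.ext
    apply Subtype.ext
    simpa using h3
  obtain ⟨R, hR⟩ := hU'p.exists_le_sylow
  obtain ⟨c, hc⟩ := MulAction.exists_smul_eq L (P.subtype hPL) R
  obtain ⟨k, hk, s, hs, hks⟩ := Subgroup.mem_sup_of_normal_left.1 (show (c : G) ∈ K ⊔ (P : Subgroup G) from c.2)
  refine ⟨k, hk, fun u hu => ?_⟩
  have h1 : a * u * a⁻¹ ∈ L := ha u hu
  have h2 : (⟨a * u * a⁻¹, h1⟩ : L) ∈ (R : Subgroup L) := hR ⟨u, hu, rfl⟩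
  rw [← hc, Sylow.coe_subgroup_smul, Subgroup.mem_pointwise_smul_iff_inv_smul_mem] at h2
  have h3 : (((MulAut.conj c)⁻¹ • (⟨a * u * a⁻¹, h1⟩ : L) : L) : G) ∈ (P : Subgroup G) := h2
  have h4 : (((MulAut.conj c)⁻¹ • (⟨a * u * a⁻¹, h1⟩ : L) : L) : G) =
      s⁻¹ * ((k⁻¹ * a) * u * (k⁻¹ * a)⁻¹) * s := by
    simp only [MulAut.smul_def, MulAut.conj_inv_apply, Subgroup.coe_mul, Subgroup.coe_inv, ← hks]
    group
  rw [h4] at h3
  have h5 := (P : Subgroup G).mul_mem ((P : Subgroup G).mul_mem hs h3) ((P : Subgroup G).inv_mem hs)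
  have h6 : s * (s⁻¹ * ((k⁻¹ * a) * u * (k⁻¹ * a)⁻¹) * s) * s⁻¹ = (k⁻¹ * a) * u * (k⁻¹ * a)⁻¹ := by
    group
  rwa [h6] at h5

/-- Burnside's argument: if `z` and `g • z` are both fixed by the Sylow subgroup `P` then `g • z = n • z` for
some `n` normalizing `P`, with `n = g c` for some `c` fixing `z`. -/
theorem exists_normalizer_smul {G X : Type*} [Group G] [Finite G] [MulAction G X] {p : ℕ}
    [Fact p.Prime] (P : Sylow p G) (z : X) (hz : ∀ h ∈ (P : Subgroup G), h • z = z) (g : G)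
    (hgz : ∀ h ∈ (P : Subgroup G), h • g • z = g • z) :
    ∃ n : G, (∀ h ∈ (P : Subgroup G), n * h * n⁻¹ ∈ (P : Subgroup G)) ∧ n • z = g • z := by
  set C := MulAction.stabilizer G z with hC
  have h1 : (P : Subgroup G) ≤ C := fun h hh => hz h hh
  have h2 : ((g⁻¹ • P : Sylow p G) : Subgroup G) ≤ C := by
    intro h hh
    rw [Sylow.coe_subgroup_smul, Subgroup.mem_pointwise_smul_iff_inv_smul_mem] at hh
    rw [hC, MulAction.mem_stabilizer_iff]
    have h3 := hgz _ hh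
    have h4 : (((MulAut.conj g⁻¹)⁻¹ • h : G)) = g * h * g⁻¹ := by
      simp [MulAut.smul_def]
    rw [h4, smul_smul, inv_mul_cancel_right, mul_smul, smul_left_cancel_iff] at h3
    exact h3
  obtain ⟨c, hc⟩ := MulAction.exists_smul_eq C (P.subtype h1) ((g⁻¹ • P : Sylow p G).subtype h2)
  refine ⟨g * c, ?_, by rw [mul_smul]; congr 1; exact c.2⟩
  intro h hh
  have h5 : (⟨(c : G) * h * (c : G)⁻¹, C.mul_mem (C.mul_mem c.2 (h1 hh)) (C.inv_mem c.2)⟩ : C) ∈
      ((g⁻¹ • P : Sylow p G).subtype h2 : Subgroup C) := by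
    rw [← hc, Sylow.coe_subgroup_smul, Subgroup.mem_pointwise_smul_iff_inv_smul_mem]
    have h6 : ((MulAut.conj c)⁻¹ • (⟨(c : G) * h * (c : G)⁻¹,
        C.mul_mem (C.mul_mem c.2 (h1 hh)) (C.inv_mem c.2)⟩ : C)) = ⟨h, h1 hh⟩ := by
      apply Subtype.ext
      simp only [MulAut.smul_def, MulAut.conj_inv_apply, Subgroup.coe_mul, Subgroup.coe_inv]
      group
    rw [h6]
    exact hh
  have h7 : (c : G) * h * (c : G)⁻¹ ∈ ((g⁻¹ • P : Sylow p G) : Subgroup G) := h5
  rw [Sylow.coe_subgroup_smul, Subgroup.mem_pointwise_smul_iff_inv_smul_mem] at h7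
  have h8 : (((MulAut.conj g⁻¹)⁻¹ • ((c : G) * h * (c : G)⁻¹) : G)) = g * c * h * (g * c)⁻¹ := by
    simp [MulAut.smul_def, mul_assoc]
  rwa [h8] at h7

end Cfsg.Agent.H774
end

-- part: H774/CommPow
section
/-!
# Powers of elements centralized because of a class bound or by an abelian subgroup of largest order (helper774)
-/

set_option autoImplicit false

namespace Cfsg.Agent.H774

/-- If `g` normalizes the abelian `V`, `y ∈ V` is centralized by `g^p` and the `(n(p-1)+1)`-fold commutator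
of `g` with `y` is trivial, then `g` centralizes `y^(p^n)`. -/
theorem conj_pow_eq_of_class {Ω : Type*} [Group Ω] {p : ℕ} (hp : p.Prime) (n : ℕ) (V : Subgroup Ω)
    (hV : ∀ a ∈ V, ∀ b ∈ V, a * b = b * a) (g : Ω) (hg : ∀ v ∈ V, g * v * g⁻¹ ∈ V)
    (L : ℕ → Subgroup Ω) (hL : ∀ j, ∀ v ∈ V, v ∈ L j → g * v * g⁻¹ * v⁻¹ ∈ L (j + 1))
    (hLm : L (n * (p - 1) + 1) = ⊥) (y : Ω) (hyV : y ∈ V) (hy0 : y ∈ L 0)
    (hyp : g ^ p * y * (g ^ p)⁻¹ = y) : g * y ^ (p ^ n) * g⁻¹ = y ^ (p ^ n) := by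
  let _ : CommGroup V :=
    { (inferInstance : Group V) with
      mul_comm := fun a b => Subtype.ext (hV a a.2 b b.2) }
  let c : V →* V :=
    { toFun := fun v => ⟨g * v * g⁻¹, hg v v.2⟩
      map_one' := Subtype.ext (by simp)
      map_mul' := fun a b => Subtype.ext (by simp [mul_assoc]) }
  let f : Module.End ℤ (Additive V) := (MonoidHom.toAdditive c).toIntLinearMap
  have hf : ∀ v : V, f (Additive.ofMul v) = Additive.ofMul (c v) := fun v => rfl
  have hpow : ∀ k : ℕ, (((Additive.toMul ((f ^ k) (Additive.ofMul (⟨y, hyV⟩ : V))) : V)) : Ω) =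
      g ^ k * y * (g ^ k)⁻¹ := by
    intro k
    induction k with
    | zero => simp
    | succ k ih =>
      rw [pow_succ', Module.End.mul_apply]
      have e1 : ((f ^ k) (Additive.ofMul (⟨y, hyV⟩ : V))) =
        Additive.ofMul (Additive.toMul ((f ^ k) (Additive.ofMul (⟨y, hyV⟩ : V))) : V) := rfl
      rw [e1, hf]
      show g * ((Additive.toMul ((f ^ k) (Additive.ofMul (⟨y, hyV⟩ : V))) : V) : Ω) * g⁻¹ = _
      rw [ih, pow_succ']
      group
  have hcomm : ∀ k : ℕ, (((Additive.toMul (((f - 1) ^ k) (Additive.ofMul (⟨y, hyV⟩ : V))) : V)) : Ω)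
      ∈ L k := by
    intro k
    induction k with
    | zero => simpa using hy0
    | succ k ih =>
      rw [pow_succ', Module.End.mul_apply]
      set w := ((f - 1) ^ k) (Additive.ofMul (⟨y, hyV⟩ : V)) with hw
      have e2 : (((Additive.toMul ((f - 1) w) : V)) : Ω) =
          g * ((Additive.toMul w : V) : Ω) * g⁻¹ * ((Additive.toMul w : V) : Ω)⁻¹ := by
        have : (f - 1) w = f w - w := rfl
        rw [this]
        have e3 : w = Additive.ofMul (Additive.toMul w : V) := rfl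
        rw [e3, hf, ← ofMul_div]
        show (((c (Additive.toMul w)) / (Additive.toMul w) : V) : Ω) = _
        rw [div_eq_mul_inv]
        rfl
      rw [e2]
      exact hL k _ (Additive.toMul w : V).2 ih
  have h1 : (f ^ p) (Additive.ofMul (⟨y, hyV⟩ : V)) = Additive.ofMul (⟨y, hyV⟩ : V) := by
    apply Additive.toMul.injective
    apply Subtype.ext
    rw [hpow p, hyp]
    rfl
  have h2 : ((f - 1) ^ (n * (p - 1) + 1)) (Additive.ofMul (⟨y, hyV⟩ : V)) = 0 := by
    have h3 := hcomm (n * (p - 1) + 1)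
    rw [hLm, Subgroup.mem_bot] at h3
    apply Additive.toMul.injective
    apply Subtype.ext
    exact h3
  have h4 := end_smul_eq hp n f _ h1 h2
  rw [hf, ← ofMul_pow, ← ofMul_pow] at h4
  have h5 := congrArg Subtype.val (Additive.ofMul.injective h4)
  have h6 : (g * y * g⁻¹) ^ (p ^ n) = y ^ (p ^ n) := h5
  rw [conj_pow] at h6
  exact h6

/-- Some element of a `p`-subgroup not centralizing `y` has its `p`-th power centralizing `y`. -/
theorem exists_pow_commute {Ω : Type*} [Group Ω] {p : ℕ} (a₀ y : Ω) (k₀ : ℕ) (hk₀ : a₀ ^ p ^ k₀ = 1)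
    (h : a₀ * y ≠ y * a₀) : ∃ j : ℕ, a₀ ^ j * y ≠ y * a₀ ^ j ∧ (a₀ ^ j) ^ p * y = y * (a₀ ^ j) ^ p := by
  classical
  have hex : ∃ k : ℕ, a₀ ^ p ^ k * y = y * a₀ ^ p ^ k := ⟨k₀, by rw [hk₀]; simp⟩
  have h1 := Nat.find_spec hex
  have h2 : Nat.find hex ≠ 0 := by
    intro h0
    rw [h0] at h1
    simp at h1
    exact h h1
  obtain ⟨m, hm⟩ := Nat.exists_eq_succ_of_ne_zero h2
  have h3 := Nat.find_min hex (m := m) (by omega)
  refine ⟨p ^ m, h3, ?_⟩
  rw [← pow_mul, ← pow_succ]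
  rw [hm] at h1
  exact h1

/-- If `a` commutes with `c = a y a⁻¹ y⁻¹`, `y` commutes with `c`, and `a^p` commutes with `y` then `a` commutes
with `y^p`. -/
theorem commute_pow_of_quadratic {Ω : Type*} [Group Ω] {p : ℕ} (a y : Ω)
    (hac : a * (a * y * a⁻¹ * y⁻¹) = (a * y * a⁻¹ * y⁻¹) * a)
    (hyc : Commute (a * y * a⁻¹ * y⁻¹) y) (hp : a ^ p * y = y * a ^ p) :
    a * y ^ p = y ^ p * a := by
  set c := a * y * a⁻¹ * y⁻¹ with hc
  have h1 : ∀ j : ℕ, a ^ j * y * (a ^ j)⁻¹ = c ^ j * y := by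
    intro j
    induction j with
    | zero => simp
    | succ j ih =>
      have hac' : a * c ^ j = c ^ j * a := ((show Commute a c from hac).pow_right j)
      calc a ^ (j + 1) * y * (a ^ (j + 1))⁻¹ = a * (a ^ j * y * (a ^ j)⁻¹) * a⁻¹ := by
            rw [pow_succ']; group
        _ = a * c ^ j * y * a⁻¹ := by rw [ih]; group
        _ = c ^ j * (a * y * a⁻¹ * y⁻¹) * y := by rw [hac']; group
        _ = c ^ (j + 1) * y := by rw [← hc, pow_succ]
  have h2 : c ^ p = 1 := by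
    have h3 := h1 p
    rw [hp] at h3
    have h4 : y * a ^ p * (a ^ p)⁻¹ = y := by group
    rw [h4] at h3
    exact (mul_eq_right.1 h3.symm)
  have h5 : a * y ^ p * a⁻¹ = y ^ p := by
    rw [← conj_pow]
    have h6 : a * y * a⁻¹ = c * y := by rw [hc]; group
    rw [h6, hyc.mul_pow, h2, one_mul]
  calc a * y ^ p = (a * y ^ p * a⁻¹) * a := by group
    _ = y ^ p * a := by rw [h5]

/-- Order of a product of two commuting subgroups, as an inequality. -/
theorem card_mul_card_le {Ω : Type*} [Group Ω] (H K : Subgroup Ω) [Finite H] [Finite K]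
    (hHK : ∀ h ∈ H, ∀ k ∈ K, h * k = k * h) (m n : ℕ) (hn : Nat.card (H ⊓ K : Subgroup Ω) ≤ n)
    (hm : Nat.card (H ⊔ K : Subgroup Ω) ≤ m) : Nat.card H * Nat.card K ≤ m * n := by
  let f : H × K →* Ω :=
    { toFun := fun x => (x.1 : Ω) * (x.2 : Ω)
      map_one' := by simp
      map_mul' := by
        rintro ⟨a, b⟩ ⟨c, d⟩
        show ((a : Ω) * c) * ((b : Ω) * d) = ((a : Ω) * b) * ((c : Ω) * d)
        have := hHK c c.2 b b.2
        calc ((a : Ω) * c) * ((b : Ω) * d) = (a : Ω) * (c * b) * d := by group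
          _ = (a : Ω) * (b * c) * d := by rw [this]
          _ = _ := by group }
  have hr : f.range ≤ H ⊔ K := by
    rintro _ ⟨⟨a, b⟩, rfl⟩
    exact Subgroup.mul_mem _ (Subgroup.mem_sup_left a.2) (Subgroup.mem_sup_right b.2)
  have hr2 : H ⊔ K ≤ f.range := by
    refine sup_le ?_ ?_
    · intro h hh
      exact ⟨(⟨h, hh⟩, 1), by show h * ((1 : K) : Ω) = h; simp⟩
    · intro h hh
      exact ⟨(1, ⟨h, hh⟩), by show ((1 : H) : Ω) * h = h; simp⟩
  have hre : f.range = H ⊔ K := le_antisymm hr hr2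
  have hfr : Finite f.range := Finite.of_surjective f.rangeRestrict f.rangeRestrict_surjective
  have h1 : Nat.card (H × K) = Nat.card f.range * Nat.card f.ker := by
    rw [Subgroup.card_eq_card_quotient_mul_card_subgroup f.ker,
      Nat.card_congr (QuotientGroup.quotientKerEquivRange f).toEquiv]
  have h2 : Nat.card f.ker ≤ Nat.card (H ⊓ K : Subgroup Ω) := by
    have hfin : Finite (H ⊓ K : Subgroup Ω) :=
      Finite.of_injective (Subgroup.inclusion (inf_le_left : H ⊓ K ≤ H))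
        (Subgroup.inclusion_injective _)
    have hmem : ∀ x : f.ker, ((x : H × K).2 : Ω) ∈ H ⊓ K := by
      rintro ⟨⟨a, b⟩, hab⟩
      have hab' : (a : Ω) * b = 1 := hab
      refine ⟨?_, b.2⟩
      have : (b : Ω) = (a : Ω)⁻¹ := eq_inv_of_mul_eq_one_right hab'
      show (b : Ω) ∈ H
      rw [this]
      exact H.inv_mem a.2
    refine Nat.card_le_card_of_injective (fun x : f.ker => (⟨_, hmem x⟩ : (H ⊓ K : Subgroup Ω))) ?_
    rintro ⟨⟨a, b⟩, hab⟩ ⟨⟨c, d⟩, hcd⟩ h
    have hab' : (a : Ω) * b = 1 := hab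
    have hcd' : (c : Ω) * d = 1 := hcd
    have hbd : (b : Ω) = d := congrArg (fun z : (H ⊓ K : Subgroup Ω) => (z : Ω)) h
    have hac : (a : Ω) = c := by
      rw [eq_inv_of_mul_eq_one_left hab', eq_inv_of_mul_eq_one_left hcd', hbd]
    apply Subtype.ext
    exact Prod.ext (Subtype.ext hac) (Subtype.ext hbd)
  rw [← Nat.card_prod, h1, hre]
  exact Nat.mul_le_mul hm (h2.trans hn)

end Cfsg.Agent.H774
end

-- part: H774/ThompsonRep
section
/-!
# An element-wise Thompson replacement (helper774)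

Let `A` be an abelian subgroup of largest order of the finite `p`-group `T`, let `V` be an abelian subgroup of `T`
normalized by `A`, and `y ∈ V` not centralized by `A`. Then some element of `A` does not centralize `y` but
centralizes `y^p`.
-/

set_option autoImplicit false

namespace Cfsg.Agent.H774

open scoped commutatorElement

variable {Ω : Type*} [Group Ω]

/-- The algebra: if `y = [a,y] e` with `e` centralized by the abelian `A`, then `[b,y] = [a,[b,y]]` for `b ∈ A`. -/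
theorem comm_eq_comm_comm (V : Subgroup Ω) (hV : ∀ a ∈ V, ∀ b ∈ V, a * b = b * a) (a b y e : Ω)
    (hab : a * b = b * a) (hyV : y ∈ V) (heV : e ∈ V)
    (haV : ∀ v ∈ V, a * v * a⁻¹ ∈ V) (hbV : ∀ v ∈ V, b * v * b⁻¹ ∈ V)
    (hbe : b * e * b⁻¹ = e) (hy : y = (a * y * a⁻¹ * y⁻¹) * e) :
    b * y * b⁻¹ * y⁻¹ = a * (b * y * b⁻¹ * y⁻¹) * a⁻¹ * (b * y * b⁻¹ * y⁻¹)⁻¹ := by
  let _ : CommGroup V :=
    { (inferInstance : Group V) with
      mul_comm := fun a b => Subtype.ext (hV a a.2 b b.2) }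
  have h2 : b * y * b⁻¹ = (a * (b * y * b⁻¹) * a⁻¹ * (b * y * b⁻¹)⁻¹) * e := by
    calc b * y * b⁻¹ = b * ((a * y * a⁻¹ * y⁻¹) * e) * b⁻¹ := by rw [← hy]
      _ = (b * a) * y * (b * a)⁻¹ * (b * y * b⁻¹)⁻¹ * (b * e * b⁻¹) := by group
      _ = (a * b) * y * (a * b)⁻¹ * (b * y * b⁻¹)⁻¹ * e := by rw [hbe, hab]
      _ = _ := by group
  let Y : Additive V := Additive.ofMul ⟨y, hyV⟩
  let E : Additive V := Additive.ofMul ⟨e, heV⟩
  let Ya : Additive V := Additive.ofMul ⟨a * y * a⁻¹, haV _ hyV⟩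
  let Yb : Additive V := Additive.ofMul ⟨b * y * b⁻¹, hbV _ hyV⟩
  let Yab : Additive V := Additive.ofMul ⟨a * (b * y * b⁻¹) * a⁻¹, haV _ (hbV _ hyV)⟩
  have e1 : Y = Ya + -Y + E := Additive.toMul.injective (Subtype.ext hy)
  have e2 : Yb = Yab + -Yb + E := Additive.toMul.injective (Subtype.ext h2)
  have e3 : Ya = Y + Y - E := by
    rw [eq_sub_iff_add_eq]
    calc Ya + E = (Ya + -Y + E) + Y := by abel
      _ = Y + Y := by rw [← e1]
  have e4 : Yab = Yb + Yb - E := by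
    rw [eq_sub_iff_add_eq]
    calc Yab + E = (Yab + -Yb + E) + Yb := by abel
      _ = Yb + Yb := by rw [← e2]
  have e5 : Yb + -Y = (Yab + -Ya) + -(Yb + -Y) := by
    rw [e3, e4]
    abel
  have e6 := congrArg (fun z : Additive V => ((Additive.toMul z : V) : Ω)) e5
  have e7 : b * y * b⁻¹ * y⁻¹ =
      (a * (b * y * b⁻¹) * a⁻¹ * (a * y * a⁻¹)⁻¹) * (b * y * b⁻¹ * y⁻¹)⁻¹ := e6
  have e8 : a * (b * y * b⁻¹) * a⁻¹ * (a * y * a⁻¹)⁻¹ = a * (b * y * b⁻¹ * y⁻¹) * a⁻¹ := by group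
  rw [← e8]
  exact e7

/-- An element `u` of a nilpotent subgroup with `u = [a,u]` is trivial. -/
theorem eq_one_of_eq_comm (T : Subgroup Ω) (hT : Group.IsNilpotent T) (a u : Ω) (ha : a ∈ T)
    (hu : u ∈ T) (h : u = a * u * a⁻¹ * u⁻¹) : u = 1 := by
  obtain ⟨n, hn⟩ := (Subgroup.isNilpotent_iff_lowerCentralSeries T).1 hT
  have key : ∀ k : ℕ, u ∈ T.lowerCentralSeries k := by
    intro k
    induction k with
    | zero => exact hu
    | succ k ih =>
      rw [Subgroup.lowerCentralSeries_succ]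
      have h1 : ⁅u, a⁆ ∈ ⁅T.lowerCentralSeries k, T⁆ := Subgroup.commutator_mem_commutator ih ha
      have h2 := Subgroup.inv_mem _ h1
      rw [commutatorElement_inv, commutatorElement_def, ← h] at h2
      exact h2
  have := key n
  rwa [hn, Subgroup.mem_bot] at this

/-- **Replacement, element-wise form.** -/
theorem exists_mem_commute_pow {p : ℕ} [Fact p.Prime] (T A V : Subgroup Ω) [Finite T]
    (hT : IsPGroup p T) (hAT : A ≤ T) (hA : ∀ a ∈ A, ∀ b ∈ A, a * b = b * a)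
    (hmax : ∀ B : Subgroup Ω, B ≤ T → (∀ a ∈ B, ∀ b ∈ B, a * b = b * a) → Nat.card B ≤ Nat.card A)
    (hVT : V ≤ T) (hV : ∀ a ∈ V, ∀ b ∈ V, a * b = b * a)
    (hAV : ∀ a ∈ A, ∀ v ∈ V, a * v * a⁻¹ ∈ V) (y : Ω) (hy : y ∈ V)
    (hnc : ∃ a ∈ A, a * y ≠ y * a) :
    ∃ a ∈ A, a * y ≠ y * a ∧ a * y ^ p = y ^ p * a := by
  classical
  have hfA : Finite A := Finite.of_injective _ (Subgroup.inclusion_injective hAT)
  have hfV : Finite V := Finite.of_injective _ (Subgroup.inclusion_injective hVT)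
  -- commutators with `y`
  let M : Subgroup Ω := Subgroup.closure {m | ∃ a ∈ A, m = a * y * a⁻¹ * y⁻¹}
  have hcV : ∀ a ∈ A, a * y * a⁻¹ * y⁻¹ ∈ V := fun a ha => V.mul_mem (hAV a ha y hy) (V.inv_mem hy)
  have hMV : M ≤ V := by
    rw [Subgroup.closure_le]
    rintro _ ⟨a, ha, rfl⟩
    exact hcV a ha
  have hmemM : ∀ a ∈ A, a * y * a⁻¹ * y⁻¹ ∈ M := fun a ha => Subgroup.subset_closure ⟨a, ha, rfl⟩
  let A1 : Subgroup Ω := A ⊓ Subgroup.centralizer (M : Set Ω)
  have hA1 : ∀ a ∈ A1, ∀ m ∈ M, a * m = m * a := fun a ha m hm =>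
    (Subgroup.mem_centralizer_iff.1 ha.2 m hm).symm
  -- the main claim
  have main : ∃ a ∈ A1, a * y ≠ y * a := by
    by_contra hcon
    push Not at hcon
    -- `C_V(A1)`
    let D : Subgroup Ω := V ⊓ Subgroup.centralizer (A1 : Set Ω)
    have hyD : y ∈ D := ⟨hy, Subgroup.mem_centralizer_iff.2 fun a ha => hcon a ha⟩
    have hfD : Finite D := Finite.of_injective _ (Subgroup.inclusion_injective (inf_le_left : D ≤ V))
    have hfA1 : Finite A1 :=
      Finite.of_injective _ (Subgroup.inclusion_injective (inf_le_left : A1 ≤ A))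
    let E : Subgroup Ω := A ⊓ V
    have hfE : Finite E := Finite.of_injective _ (Subgroup.inclusion_injective (inf_le_left : E ≤ A))
    have hEA1 : E ≤ A1 := by
      intro e he
      refine ⟨he.1, Subgroup.mem_centralizer_iff.2 fun m hm => ?_⟩
      exact hV m (hMV hm) e he.2
    have hED : E ≤ D := by
      intro e he
      refine ⟨he.2, Subgroup.mem_centralizer_iff.2 fun a ha => hA a ha.1 e he.1⟩
    have hMD : M ≤ D := by
      intro m hm
      exact ⟨hMV hm, Subgroup.mem_centralizer_iff.2 fun a ha => hA1 a ha m hm⟩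
    -- counting 1
    have hcount1 : Nat.card A1 * Nat.card D ≤ Nat.card A * Nat.card E := by
      refine card_mul_card_le A1 D ?_ _ _ ?_ ?_
      · intro a ha d hd
        exact Subgroup.mem_centralizer_iff.1 hd.2 a ha
      · refine Nat.card_le_card_of_injective
          (Subgroup.inclusion (show A1 ⊓ D ≤ E from fun x hx => ⟨hx.1.1, hx.2.1⟩))
          (Subgroup.inclusion_injective _)
      · refine hmax _ (sup_le (inf_le_left.trans hAT) (inf_le_left.trans hVT)) ?_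
        have hcomm : ∀ a ∈ (A1 : Set Ω) ∪ (D : Set Ω), ∀ b ∈ (A1 : Set Ω) ∪ (D : Set Ω),
            a * b = b * a := by
          rintro a (ha | ha) b (hb | hb)
          · exact hA a ha.1 b hb.1
          · exact Subgroup.mem_centralizer_iff.1 hb.2 a ha
          · exact (Subgroup.mem_centralizer_iff.1 ha.2 b hb).symm
          · exact hV a ha.1 b hb.1
        have hsup : A1 ⊔ D = Subgroup.closure ((A1 : Set Ω) ∪ (D : Set Ω)) := by
          rw [Subgroup.closure_union, Subgroup.closure_eq, Subgroup.closure_eq]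
        rw [hsup]
        intro a ha b hb
        have h1 := (Subgroup.isMulCommutative_closure hcomm).is_comm.comm ⟨a, ha⟩ ⟨b, hb⟩
        exact congrArg Subtype.val h1
    -- the map `(a, e) ↦ [a,y] e`
    let Ψ : A × E → D := fun x =>
      ⟨((x.1 : Ω) * y * (x.1 : Ω)⁻¹ * y⁻¹) * x.2, D.mul_mem (hMD (hmemM _ x.1.2)) (hED x.2.2)⟩
    have hΨ : ∀ x x' : A × E, Ψ x = Ψ x' → ((x.1 : Ω))⁻¹ * x'.1 ∈ A1 := by
      rintro ⟨a, e⟩ ⟨b, f⟩ h
      have h1 : ((a : Ω) * y * (a : Ω)⁻¹ * y⁻¹) * e = ((b : Ω) * y * (b : Ω)⁻¹ * y⁻¹) * f :=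
        congrArg Subtype.val h
      refine ⟨A.mul_mem (A.inv_mem a.2) b.2, ?_⟩
      -- `a⁻¹ b` centralizes `[c,y]` for all `c ∈ A`
      show (a : Ω)⁻¹ * b ∈ Subgroup.centralizer (M : Set Ω)
      rw [Subgroup.mem_centralizer_iff]
      have hle : M ≤ Subgroup.centralizer ({(a : Ω)⁻¹ * b} : Set Ω) := by
        rw [Subgroup.closure_le]
        rintro _ ⟨c, hc, rfl⟩
        rw [SetLike.mem_coe, Subgroup.mem_centralizer_iff]
        intro z hz
        rw [Set.mem_singleton_iff] at hz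
        subst hz
        -- in `V`
        let _ : CommGroup V :=
          { (inferInstance : Group V) with
            mul_comm := fun a b => Subtype.ext (hV a a.2 b b.2) }
        have hca : c * a = a * c := hA c hc a a.2
        have hcb : c * b = b * c := hA c hc b b.2
        have hce : c * e * c⁻¹ = e := by
          rw [hA c hc e e.2.1]; group
        have hcf : c * f * c⁻¹ = f := by
          rw [hA c hc f f.2.1]; group
        have h2 : (a : Ω) * (c * y * c⁻¹) * (a : Ω)⁻¹ * (c * y * c⁻¹)⁻¹ * e =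
            (b : Ω) * (c * y * c⁻¹) * (b : Ω)⁻¹ * (c * y * c⁻¹)⁻¹ * f := by
          calc (a : Ω) * (c * y * c⁻¹) * (a : Ω)⁻¹ * (c * y * c⁻¹)⁻¹ * e
              = (a * c) * y * (a * c : Ω)⁻¹ * (c * y * c⁻¹)⁻¹ * e := by group
            _ = (c * a) * y * (c * a : Ω)⁻¹ * (c * y * c⁻¹)⁻¹ * (c * e * c⁻¹) := by rw [hca, hce]
            _ = c * (((a : Ω) * y * (a : Ω)⁻¹ * y⁻¹) * e) * c⁻¹ := by group
            _ = c * (((b : Ω) * y * (b : Ω)⁻¹ * y⁻¹) * f) * c⁻¹ := by rw [h1]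
            _ = (c * b) * y * (c * b : Ω)⁻¹ * (c * y * c⁻¹)⁻¹ * (c * f * c⁻¹) := by group
            _ = (b * c) * y * (b * c : Ω)⁻¹ * (c * y * c⁻¹)⁻¹ * f := by rw [hcb, hcf]
            _ = _ := by group
        have hcyV : c * y * c⁻¹ ∈ V := hAV c hc y hy
        let Y : Additive V := Additive.ofMul ⟨y, hy⟩
        let Ee : Additive V := Additive.ofMul ⟨e, e.2.2⟩
        let Ff : Additive V := Additive.ofMul ⟨f, f.2.2⟩
        let Ya : Additive V := Additive.ofMul ⟨a * y * (a : Ω)⁻¹, hAV a a.2 y hy⟩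
        let Yb : Additive V := Additive.ofMul ⟨b * y * (b : Ω)⁻¹, hAV b b.2 y hy⟩
        let Yc : Additive V := Additive.ofMul ⟨c * y * c⁻¹, hcyV⟩
        let Yac : Additive V := Additive.ofMul ⟨a * (c * y * c⁻¹) * (a : Ω)⁻¹, hAV a a.2 _ hcyV⟩
        let Ybc : Additive V := Additive.ofMul ⟨b * (c * y * c⁻¹) * (b : Ω)⁻¹, hAV b b.2 _ hcyV⟩
        have e1 : Ya + -Y + Ee = Yb + -Y + Ff := Additive.toMul.injective (Subtype.ext h1)
        have e2 : Yac + -Yc + Ee = Ybc + -Yc + Ff := Additive.toMul.injective (Subtype.ext h2)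
        have e3 : Ya - Yb = Ff - Ee := by
          rw [sub_eq_sub_iff_add_eq_add]
          calc Ya + Ee = Ya + -Y + Ee + Y := by abel
            _ = Yb + -Y + Ff + Y := by rw [e1]
            _ = Ff + Yb := by abel
        have e4 : Yac - Ybc = Ff - Ee := by
          rw [sub_eq_sub_iff_add_eq_add]
          calc Yac + Ee = Yac + -Yc + Ee + Yc := by abel
            _ = Ybc + -Yc + Ff + Yc := by rw [e2]
            _ = Ff + Ybc := by abel
        have e5 : Yac - Ya = Ybc - Yb := by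
          rw [sub_eq_sub_iff_add_eq_add]
          have := e4.trans e3.symm
          rw [sub_eq_sub_iff_add_eq_add] at this
          rw [this]; abel
        have e6 : (a : Ω) * (c * y * c⁻¹) * (a : Ω)⁻¹ * (a * y * (a : Ω)⁻¹)⁻¹ =
            (b : Ω) * (c * y * c⁻¹) * (b : Ω)⁻¹ * (b * y * (b : Ω)⁻¹)⁻¹ := by
          rw [sub_eq_add_neg, sub_eq_add_neg] at e5
          exact congrArg (fun z : Additive V => ((Additive.toMul z : V) : Ω)) e5
        have e7 : (a : Ω) * (c * y * c⁻¹ * y⁻¹) * (a : Ω)⁻¹ = b * (c * y * c⁻¹ * y⁻¹) * (b : Ω)⁻¹ := by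
          calc (a : Ω) * (c * y * c⁻¹ * y⁻¹) * (a : Ω)⁻¹ = (a : Ω) * (c * y * c⁻¹) * (a : Ω)⁻¹ *
                (a * y * (a : Ω)⁻¹)⁻¹ := by group
            _ = (b : Ω) * (c * y * c⁻¹) * (b : Ω)⁻¹ * (b * y * (b : Ω)⁻¹)⁻¹ := e6
            _ = _ := by group
        calc (a : Ω)⁻¹ * b * (c * y * c⁻¹ * y⁻¹)
            = (a : Ω)⁻¹ * (b * (c * y * c⁻¹ * y⁻¹) * (b : Ω)⁻¹) * b := by group
          _ = (a : Ω)⁻¹ * ((a : Ω) * (c * y * c⁻¹ * y⁻¹) * (a : Ω)⁻¹) * b := by rw [e7]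
          _ = (c * y * c⁻¹ * y⁻¹) * ((a : Ω)⁻¹ * b) := by group
      intro m hm
      exact (Subgroup.mem_centralizer_iff.1 (hle hm) _ rfl).symm
    -- counting 2
    have hcount2 : Nat.card A * Nat.card E ≤ Nat.card (Set.range Ψ) * Nat.card A1 := by
      choose r hr using fun d : Set.range Ψ => d.2
      rw [← Nat.card_prod, ← Nat.card_prod]
      refine Nat.card_le_card_of_injective (fun x : A × E =>
        ((⟨Ψ x, ⟨x, rfl⟩⟩ : Set.range Ψ), (⟨((r ⟨Ψ x, ⟨x, rfl⟩⟩).1 : Ω)⁻¹ * x.1,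
          hΨ _ _ (hr ⟨Ψ x, ⟨x, rfl⟩⟩)⟩ : A1))) ?_
      intro x x' h
      have h1 : Ψ x = Ψ x' := congrArg (fun z => ((z.1 : Set.range Ψ) : D)) h
      have h2 : ((r ⟨Ψ x, ⟨x, rfl⟩⟩).1 : Ω)⁻¹ * x.1 = ((r ⟨Ψ x', ⟨x', rfl⟩⟩).1 : Ω)⁻¹ * x'.1 :=
        congrArg (fun z => ((z.2 : A1) : Ω)) h
      have h3 : (⟨Ψ x, ⟨x, rfl⟩⟩ : Set.range Ψ) = ⟨Ψ x', ⟨x', rfl⟩⟩ := Subtype.ext h1
      rw [h3] at h2
      have h4 : (x.1 : Ω) = x'.1 := mul_left_cancel h2
      have h5 : ((x.1 : Ω) * y * (x.1 : Ω)⁻¹ * y⁻¹) * x.2 =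
        ((x'.1 : Ω) * y * (x'.1 : Ω)⁻¹ * y⁻¹) * x'.2 := congrArg Subtype.val h1
      rw [h4] at h5
      exact Prod.ext (Subtype.ext h4) (Subtype.ext (mul_left_cancel h5))
    have hsurj : Set.range Ψ = Set.univ := by
      have hpos : 0 < Nat.card A1 := Nat.card_pos
      have h1 : Nat.card D * Nat.card A1 ≤ Nat.card (Set.range Ψ) * Nat.card A1 := by
        rw [mul_comm (Nat.card D)]
        exact hcount1.trans hcount2
      have h2 : Nat.card D ≤ Nat.card (Set.range Ψ) := Nat.le_of_mul_le_mul_right h1 hpos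
      refine Set.eq_of_subset_of_ncard_le (Set.subset_univ _) ?_ (Set.toFinite _)
      rw [Set.ncard_univ, ← Nat.card_coe_set_eq]
      exact h2
    have hyr : (⟨y, hyD⟩ : D) ∈ Set.range Ψ := by rw [hsurj]; trivial
    obtain ⟨⟨a, e⟩, hae⟩ := hyr
    have hae' : ((a : Ω) * y * (a : Ω)⁻¹ * y⁻¹) * e = y := congrArg Subtype.val hae
    obtain ⟨b, hb, hbn⟩ := hnc
    have h1 := comm_eq_comm_comm V hV a b y e (hA a a.2 b hb) hy e.2.2 (hAV a a.2) (hAV b hb)
      (by rw [hA b hb e e.2.1]; group) hae'.symm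
    have h2 := eq_one_of_eq_comm T hT.isNilpotent a (b * y * b⁻¹ * y⁻¹) (hAT a.2)
      (hVT (hcV b hb)) h1
    apply hbn
    calc b * y = (b * y * b⁻¹ * y⁻¹) * y * b := by group
      _ = y * b := by rw [h2]; group
  obtain ⟨a₀, ha₀, hne⟩ := main
  obtain ⟨k₀, hk₀⟩ := hT ⟨a₀, hAT ha₀.1⟩
  have hk₀' : a₀ ^ p ^ k₀ = 1 := by
    have := congrArg Subtype.val hk₀
    simpa using this
  obtain ⟨j, hj1, hj2⟩ := exists_pow_commute a₀ y k₀ hk₀' hne
  have hj : a₀ ^ j ∈ A1 := A1.pow_mem ha₀ j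
  refine ⟨a₀ ^ j, hj.1, hj1, commute_pow_of_quadratic _ _ ?_ ?_ hj2⟩
  · exact hA1 _ hj _ (hmemM _ hj.1)
  · exact hV _ (hcV _ hj.1) _ hy

end Cfsg.Agent.H774
end

-- part: H774/CentralNormal
section
/-!
# Normality in a fusion system of subgroups of the centre of `S` (helper774)
-/

set_option autoImplicit false

namespace Cfsg.Agent.H774

open scoped commutatorElement
open Cfsg Cfsg.FusionSystem Cfsg.Agent.H802

variable {Ω : Type*} [Group Ω] {S : Subgroup Ω}

/-- For a finite `Z`, an injective `ψ` on `P ⊔ Z` carrying `Z` into `Z` carries it onto `Z`. -/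
theorem map_subgroupOf_eq {P Z : Subgroup Ω} [Finite Z] {ψ : ↥(P ⊔ Z) →* Ω}
    (hψ : Function.Injective ψ)
    (h : ∀ (z : Ω) (_ : z ∈ Z) (hz : z ∈ P ⊔ Z), ψ ⟨z, hz⟩ ∈ Z) :
    (Z.subgroupOf (P ⊔ Z)).map ψ = Z := by
  have hle : (Z.subgroupOf (P ⊔ Z)).map ψ ≤ Z := by
    rintro _ ⟨z, hz, rfl⟩
    exact h z hz z.2
  have hcard : Nat.card ((Z.subgroupOf (P ⊔ Z)).map ψ) = Nat.card Z := by
    rw [← Nat.card_congr ((Z.subgroupOf (P ⊔ Z)).equivMapOfInjective ψ hψ).toEquiv]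
    exact Nat.card_congr (Subgroup.subgroupOfEquivOfLe le_sup_right).toEquiv
  exact Subgroup.eq_of_le_of_card_ge hle hcard.ge

theorem apply_mem_of_map_eq {P Z : Subgroup Ω} {ψ : ↥(P ⊔ Z) →* Ω}
    (h : (Z.subgroupOf (P ⊔ Z)).map ψ = Z) (z : Ω) (hz : z ∈ Z) (hz' : z ∈ P ⊔ Z) :
    ψ ⟨z, hz'⟩ ∈ Z :=
  h.le ⟨⟨z, hz'⟩, hz, rfl⟩

/-- The system of the maps of `F` that extend to the central subgroup `Z` of `S`, preserving it: the normalizer system
of `Z`. -/
def fixSys (F : FusionSystem S) (Z : Subgroup Ω) [Finite Z]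
    (hZ : Z ≤ S ⊓ Subgroup.centralizer (S : Set Ω)) : FusionSystem S where
  Hom P := {φ | φ ∈ F.Hom P ∧ ∃ ψ ∈ F.Hom (P ⊔ Z),
    (∀ x : P, ψ (Subgroup.inclusion le_sup_left x) = φ x) ∧ (Z.subgroupOf (P ⊔ Z)).map ψ = Z}
  le_of_mem h := F.le_of_mem h.1
  injective_of_mem h := F.injective_of_mem h.1
  conj_mem := by
    intro P g hP hg
    have hZS : Z ≤ S := hZ.trans inf_le_left
    refine ⟨F.conj_mem hP hg, conjHom (P ⊔ Z) g, F.conj_mem (sup_le hP hZS) hg, fun x => rfl, ?_⟩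
    refine map_subgroupOf_eq (F.injective_of_mem (F.conj_mem (sup_le hP hZS) hg)) ?_
    intro z hz hz'
    show g * z * g⁻¹ ∈ Z
    have h1 := Subgroup.mem_centralizer_iff.1 (hZ hz).2 g hg
    rw [h1, mul_inv_cancel_right]
    exact hz
  comp_mem := by
    rintro P Q φ ψ ⟨hφ, φ', hφ', h1, h2⟩ ⟨hψ, ψ', hψ', h3, h4⟩ h
    refine ⟨F.comp_mem hφ hψ h, ?_⟩
    have hmem : ∀ x : ↥(P ⊔ Z), φ' x ∈ Q ⊔ Z := by
      have hle : P ⊔ Z ≤ ((Q ⊔ Z).comap φ').map (P ⊔ Z).subtype := by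
        refine sup_le ?_ ?_
        · intro x hx
          refine ⟨⟨x, Subgroup.mem_sup_left hx⟩, ?_, rfl⟩
          show φ' _ ∈ Q ⊔ Z
          have := h1 ⟨x, hx⟩
          have h5 : φ' ⟨x, Subgroup.mem_sup_left hx⟩ = φ ⟨x, hx⟩ := this
          rw [h5]
          exact Subgroup.mem_sup_left (h _)
        · intro x hx
          refine ⟨⟨x, Subgroup.mem_sup_right hx⟩, ?_, rfl⟩
          exact Subgroup.mem_sup_right (apply_mem_of_map_eq h2 x hx _)
      intro x
      obtain ⟨y, hy, hyx⟩ := hle x.2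
      have : y = x := Subtype.ext hyx
      rw [← this]
      exact hy
    obtain ⟨χ, hχ, hχe⟩ := exists_comp hφ' hψ' hmem
    refine ⟨χ, hχ, ?_, map_subgroupOf_eq (F.injective_of_mem hχ) ?_⟩
    · intro x
      rw [hχe]
      have h5 : (⟨φ' (Subgroup.inclusion le_sup_left x), hmem _⟩ : ↥(Q ⊔ Z)) =
          Subgroup.inclusion le_sup_left ⟨φ x, h x⟩ := Subtype.ext (h1 x)
      rw [h5, h3]
      rfl
    · intro z hz hz'
      rw [hχe]
      exact apply_mem_of_map_eq h4 _ (apply_mem_of_map_eq h2 z hz hz') _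
  inv_mem := by
    rintro P φ ⟨hφ, φ', hφ', h1, h2⟩
    obtain ⟨ψ, hψ, hψe⟩ := F.inv_mem hφ
    have hr : φ'.range = φ.range ⊔ Z := by
      apply le_antisymm
      · have hle : P ⊔ Z ≤ ((φ.range ⊔ Z).comap φ').map (P ⊔ Z).subtype := by
          refine sup_le ?_ ?_
          · intro x hx
            refine ⟨⟨x, Subgroup.mem_sup_left hx⟩, ?_, rfl⟩
            show φ' _ ∈ φ.range ⊔ Z
            have h5 : φ' ⟨x, Subgroup.mem_sup_left hx⟩ = φ ⟨x, hx⟩ := h1 ⟨x, hx⟩
            rw [h5]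
            exact Subgroup.mem_sup_left ⟨_, rfl⟩
          · intro x hx
            refine ⟨⟨x, Subgroup.mem_sup_right hx⟩, ?_, rfl⟩
            exact Subgroup.mem_sup_right (apply_mem_of_map_eq h2 x hx _)
        rintro _ ⟨x, rfl⟩
        obtain ⟨y, hy, hyx⟩ := hle x.2
        have : y = x := Subtype.ext hyx
        rw [← this]
        exact hy
      · refine sup_le ?_ ?_
        · rintro _ ⟨x, rfl⟩
          exact ⟨_, h1 x⟩
        · intro z hz
          rw [← h2] at hz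
          obtain ⟨w, -, hw⟩ := hz
          exact ⟨w, hw⟩
    obtain ⟨ψ', hψ', -, h3, -⟩ := exists_inv hφ' hr
    refine ⟨ψ, ⟨hψ, ψ', hψ', ?_, map_subgroupOf_eq (F.injective_of_mem hψ') ?_⟩, hψe⟩
    · rintro ⟨_, x, rfl⟩
      rw [hψe x]
      have h4 : φ' (Subgroup.inclusion le_sup_left x) ∈ φ.range ⊔ Z := by
        rw [h1 x]
        exact (le_sup_left : φ.range ≤ φ.range ⊔ Z) ⟨x, rfl⟩
      have h5 := h3 (Subgroup.inclusion le_sup_left x) h4
      have h6 : (⟨φ' (Subgroup.inclusion le_sup_left x), h4⟩ : ↥(φ.range ⊔ Z)) =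
          Subgroup.inclusion le_sup_left (⟨φ x, ⟨x, rfl⟩⟩ : φ.range) := Subtype.ext (h1 x)
      rw [h6] at h5
      exact h5
    · intro z hz hz'
      have hz2 := hz
      rw [← h2] at hz2
      obtain ⟨w, hw, hwz⟩ := hz2
      have h5 := h3 w (by rw [hwz]; exact hz')
      have h6 : (⟨φ' w, by rw [hwz]; exact hz'⟩ : ↥(φ.range ⊔ Z)) = ⟨z, hz'⟩ := Subtype.ext hwz
      rw [h6] at h5
      rw [h5]
      exact hw

/-- **Normality criterion for a subgroup `Z` of `Z(S)`**: it is enough that `Z` be invariant under `Aut_F(Q)` for the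
fully normalized centric `Q`, and one may assume that all maps of `F` with larger source preserve `Z`. -/
theorem isNormal_of_centric_aut {p : ℕ} [Fact p.Prime] [Finite S] (hS : IsPGroup p S)
    {F : FusionSystem S} (hF : F.IsSaturated p) (Z : Subgroup Ω)
    (hZ : Z ≤ S ⊓ Subgroup.centralizer (S : Set Ω))
    (h : ∀ Q : Subgroup Ω, F.IsFullyNormalized Q → F.IsCentric Q → Z ≤ Q →
      (∀ R : Subgroup Ω, Nat.card Q < Nat.card R → ∀ φ ∈ F.Hom R, ∀ z ∈ Z, ∀ hz : z ∈ R,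
        φ ⟨z, hz⟩ ∈ Z) →
      ∀ α ∈ F.autGroup Q, ∀ z ∈ Z, ∀ hz : z ∈ Q, ((α ⟨z, hz⟩ : Q) : Ω) ∈ Z) : F.IsNormal Z := by
  have hfZ : Finite Z := finite_of_le (hZ.trans inf_le_left)
  have hle : ∀ P, F.Hom P ⊆ (fixSys F Z hZ).Hom P := by
    refine le_of_centric hS hF (fixSys F Z hZ) ?_
    intro Q hQ hQc hbig α hα
    have hZQ : Z ≤ Q := by
      intro z hz
      refine hQc.2 Q (isConj_refl F hQ.1) ⟨(hZ hz).1, ?_⟩
      exact Subgroup.centralizer_le hQ.1 (hZ hz).2
    have hkey := h Q hQ hQc hZQ ?_ α hα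
    · rw [mem_autGroup_iff _ hQ.1]
      have hαF := (mem_autGroup_iff F hQ.1 α).1 hα
      refine ⟨hαF, ?_⟩
      have hQZ : Q ⊔ Z = Q := sup_eq_left.2 hZQ
      refine ⟨(Q.subtype.comp α.toMonoidHom).comp (Subgroup.inclusion hQZ.le),
        restrict_mem hαF hQZ.le, fun x => rfl, map_subgroupOf_eq ?_ ?_⟩
      · exact F.injective_of_mem (restrict_mem hαF hQZ.le)
      · intro z hz hz'
        exact hkey z hz (hZQ hz)
    · intro R hR φ hφ z hz hzR
      obtain ⟨-, ψ, hψ, h1, h2⟩ := hbig R hR hφ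
      have h3 := h1 ⟨z, hzR⟩
      rw [← h3]
      exact apply_mem_of_map_eq h2 z hz _
  refine ⟨hZ.trans inf_le_left, fun P φ hφ => ?_⟩
  exact (hle P hφ).2

/-- Extension of a fully normalized subgroup's automorphism normalizing `Aut_S(Q)` to `N_S(Q)`. -/
theorem exists_extension_of_conj {p : ℕ} [Fact p.Prime] [Finite S] (hS : IsPGroup p S)
    {F : FusionSystem S} (hF : F.IsSaturated p) {Q R : Subgroup Ω} (hQ : F.IsFullyNormalized Q)
    (hR : R ≤ normalizerIn S Q)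
    {ν : MulAut Q} (hν : ν ∈ F.autGroup Q)
    (h : ∀ β ∈ autInducedBy R Q, ν * β * ν⁻¹ ∈ autInducedBy S Q) :
    ∃ ψ ∈ F.Hom (R ⊔ Q), ∀ (x : Ω) (hx : x ∈ Q) (hx' : x ∈ R ⊔ Q), ψ ⟨x, hx'⟩ = (ν ⟨x, hx⟩ : Q) := by
  have hνF := (mem_autGroup_iff F hQ.1 ν).1 hν
  have hrec := isReceptive_of_isFullyNormalized hS hF hQ
  have hr : (Q.subtype.comp ν.toMonoidHom).range = Q := by
    have : Finite Q := finite_of_le hQ.1
    exact range_eq_of_mapsTo hνF (fun x => (ν x).2)
  obtain ⟨ψ, hψ, hψe⟩ := hrec.2 Q _ hνF hr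
  have hle : R ⊔ Q ≤ extender S Q (Q.subtype.comp ν.toMonoidHom) := by
    refine sup_le ?_ (le_extender hQ.1 (hom_apply_mem hνF))
    intro g hg
    rw [mem_extender_iff]
    refine ⟨(hR hg).1, (hR hg).2, ?_⟩
    obtain ⟨c, hc⟩ := exists_conjAut (hR hg).2
    have hcm : c ∈ autInducedBy R Q := (mem_autInducedBy_iff R Q c).2 ⟨g, hg, hc⟩
    obtain ⟨k, hk, hke⟩ := (mem_autInducedBy_iff S Q _).1 (h c hcm)
    refine ⟨k, hk, fun x hx => ?_⟩
    have h1 := hke (ν x)
    have h2 : (ν * c * ν⁻¹) (ν x) = ν (c x) := by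
      rw [MulAut.mul_apply, MulAut.mul_apply, MulAut.inv_apply_self]
    rw [h2] at h1
    have h3 : (⟨g * x * g⁻¹, hx⟩ : Q) = c x := Subtype.ext (hc x).symm
    show ((ν ⟨g * x * g⁻¹, hx⟩ : Q) : Ω) = k * ((ν x : Q) : Ω) * k⁻¹
    rw [h3, h1]
  refine ⟨ψ.comp (Subgroup.inclusion hle), restrict_mem hψ hle, fun x hx hx' => ?_⟩
  exact hψe x hx _

/-- **Class bound**: if `S` has class at most `n(p-1)+1` then the subgroup generated by the `p^n`-th powers of the elements
of `Z(S)` is normal in every saturated fusion system over `S`. -/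
theorem isNormal_powerClosure_of_class {p : ℕ} [hp : Fact p.Prime] [Finite S] (hS : IsPGroup p S)
    {F : FusionSystem S} (hF : F.IsSaturated p) (n : ℕ)
    (hcl : Subgroup.lowerCentralSeries S (n * (p - 1) + 1) = ⊥) :
    F.IsNormal (Cfsg.powerClosure p n (S ⊓ Subgroup.centralizer (S : Set Ω))) := by
  set Z := Cfsg.powerClosure p n (S ⊓ Subgroup.centralizer (S : Set Ω)) with hZdef
  have hZ : Z ≤ S ⊓ Subgroup.centralizer (S : Set Ω) := by
    rw [hZdef, Cfsg.powerClosure, Subgroup.closure_le]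
    rintro _ ⟨x, hx, rfl⟩
    exact Subgroup.pow_mem _ hx _
  refine isNormal_of_centric_aut hS hF Z hZ ?_
  intro Q hQ hQc hZQ hbig α hα
  have hfQ : Finite Q := finite_of_le hQ.1
  have hcQ : S ⊓ Subgroup.centralizer (S : Set Ω) ≤ Q := by
    intro z hz
    refine hQc.2 Q (isConj_refl F hQ.1) ⟨hz.1, ?_⟩
    exact Subgroup.centralizer_le hQ.1 hz.2
  -- it is enough to treat the generators
  suffices hgen : ∀ x ∈ S ⊓ Subgroup.centralizer (S : Set Ω), ∀ hx : x ^ p ^ n ∈ Q,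
      ((α ⟨x ^ p ^ n, hx⟩ : Q) : Ω) ∈ Z by
    intro z hz hzQ
    have hle : Z ≤ ((Z.subgroupOf Q).comap α.toMonoidHom).map Q.subtype := by
      rw [hZdef, Cfsg.powerClosure, Subgroup.closure_le]
      rintro _ ⟨x, hx, rfl⟩
      exact ⟨⟨x ^ p ^ n, Q.pow_mem (hcQ hx) _⟩, hgen x hx _, rfl⟩
    obtain ⟨y, hy, hyz⟩ := hle hz
    have : y = ⟨z, hzQ⟩ := Subtype.ext hyz
    rw [← this]
    exact hy
  intro x hx hxQ
  by_cases hQS : Q = S
  · -- the centre of `S` is characteristic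
    have h1 : ((α ⟨x, hcQ hx⟩ : Q) : Ω) ∈ S ⊓ Subgroup.centralizer (S : Set Ω) := by
      refine ⟨hQ.1 (α _).2, Subgroup.mem_centralizer_iff.2 fun g hg => ?_⟩
      have hgQ : g ∈ Q := by rw [hQS]; exact hg
      have h2 := Subgroup.mem_centralizer_iff.1 hx.2 ((α⁻¹ ⟨g, hgQ⟩ : Q) : Ω) (hQ.1 (α⁻¹ _).2)
      have h3 : (α⁻¹ ⟨g, hgQ⟩ : Q) * ⟨x, hcQ hx⟩ = ⟨x, hcQ hx⟩ * (α⁻¹ ⟨g, hgQ⟩ : Q) := Subtype.ext h2
      have h4 := congrArg α h3
      rw [map_mul, map_mul, MulAut.apply_inv_self] at h4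
      exact congrArg Subtype.val h4
    have h2 : (⟨x ^ p ^ n, hxQ⟩ : Q) = ⟨x, hcQ hx⟩ ^ p ^ n := rfl
    rw [h2, map_pow]
    exact Subgroup.subset_closure ⟨_, h1, rfl⟩
  · have hcard := card_lt_card_normalizerIn hS hQ.1 hQS
    have hN : Nat.card Q < Nat.card (normalizerIn S Q ⊔ Q : Subgroup Ω) := by
      rwa [sup_eq_left.2 (le_normalizerIn hQ.1)]
    obtain ⟨-, P, hP⟩ := isFullyAutomized_of_isFullyNormalized hS hF hQ
    have hfG : Finite (F.autGroup Q) := inferInstance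
    have hPmem : ∀ a : F.autGroup Q, a ∈ (P : Subgroup (F.autGroup Q)) ↔
        ∃ g ∈ S, ∀ x : Q, (((a : MulAut Q) x : Q) : Ω) = g * (x : Ω) * g⁻¹ := by
      intro a
      rw [hP, Subgroup.mem_subgroupOf, mem_autInducedBy_iff]
    let x' : Q := ⟨x, hcQ hx⟩
    have hx' : ∀ a ∈ (P : Subgroup (F.autGroup Q)), a • x' = x' := by
      intro a ha
      obtain ⟨g, hg, hga⟩ := (hPmem a).1 ha
      apply Subtype.ext
      show (((a : MulAut Q) x' : Q) : Ω) = x
      rw [hga]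
      show g * x * g⁻¹ = x
      rw [Subgroup.mem_centralizer_iff.1 hx.2 g hg, mul_inv_cancel_right]
    -- `x` is central in `Q`
    have hxc : ∀ (a : F.autGroup Q) (q : Q), q * (a • x') = (a • x') * q := by
      intro a q
      have h1 : (a⁻¹ • q : Q) * x' = x' * (a⁻¹ • q : Q) :=
        Subtype.ext (Subgroup.mem_centralizer_iff.1 hx.2 _ (hQ.1 (a⁻¹ • q : Q).2))
      have h2 := congrArg (fun z : Q => a • z) h1
      simp only [smul_mul', smul_inv_smul] at h2
      exact h2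
    -- the abelian subgroup `Z(Q)`
    let V : Subgroup Ω := Q ⊓ Subgroup.centralizer (Q : Set Ω)
    have hfix := sylow_fix P (P : Subgroup (F.autGroup Q)) P.2 (fun y : Q => y ^ p ^ n)
      (fun g y => (smul_pow' g y _).symm) x' hx' ?_ ⟨α, hα⟩
    · -- Burnside
      obtain ⟨ν, hν1, hν2⟩ := exists_normalizer_smul P (x' ^ p ^ n)
        (fun a ha => by rw [smul_pow', hx' a ha]) ⟨α, hα⟩ (fun a ha => by
          have := hfix a ha
          rw [smul_pow']
          exact this)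
      obtain ⟨ψ, hψ, hψe⟩ := exists_extension_of_conj hS hF hQ (le_refl (normalizerIn S Q)) ν.2 (by
        intro β hβ
        have hβS : β ∈ autInducedBy S Q := by
          obtain ⟨g, hg, hgb⟩ := (mem_autInducedBy_iff _ _ _).1 hβ
          exact (mem_autInducedBy_iff _ _ _).2 ⟨g, hg.1, hgb⟩
        have hβG := autInducedBy_le_autGroup F hQ.1 hβS
        have h1 : (⟨β, hβG⟩ : F.autGroup Q) ∈ (P : Subgroup (F.autGroup Q)) := by
          rw [hP]; exact hβS
        have h2 := hν1 _ h1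
        rw [hP] at h2
        exact h2)
      have h3 := hbig _ hN ψ hψ (x ^ p ^ n) (by
        exact Subgroup.subset_closure ⟨x, hx, rfl⟩) (Subgroup.mem_sup_right hxQ)
      rw [hψe _ hxQ] at h3
      have h4 : ((ν : MulAut Q) ⟨x ^ p ^ n, hxQ⟩ : Q) = α ⟨x ^ p ^ n, hxQ⟩ := hν2
      rw [← h4]
      exact h3
    · -- the hypothesis of `sylow_fix`
      rintro g ⟨t, ht, htne⟩
      obtain ⟨s, hs, hst⟩ := (hPmem t).1 ht
      set y : Q := g • x' with hy
      have hyV : (y : Ω) ∈ V := ⟨y.2, Subgroup.mem_centralizer_iff.2 fun q hq =>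
        congrArg Subtype.val (hxc g ⟨q, hq⟩)⟩
      have hsQ : s ∈ Subgroup.normalizer (Q : Set Ω) := mem_normalizer_of_aut hst
      have hsy : s * (y : Ω) ≠ y * s := by
        intro heq
        apply htne
        apply Subtype.ext
        show (((t : MulAut Q) y : Q) : Ω) = y
        rw [hst, heq, mul_inv_cancel_right]
      obtain ⟨k₀, hk₀⟩ := hS ⟨s, hs⟩
      have hk₀' : s ^ p ^ k₀ = 1 := by
        have := congrArg Subtype.val hk₀
        simpa using this
      obtain ⟨j, hj1, hj2⟩ := exists_pow_commute s (y : Ω) k₀ hk₀' hsy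
      have htj : ∀ (m : ℕ) (q : Q), ((((t ^ m : F.autGroup Q) : MulAut Q) q : Q) : Ω) =
          s ^ m * q * (s ^ m)⁻¹ := by
        intro m
        induction m with
        | zero => intro q; simp
        | succ m ih =>
          intro q
          rw [pow_succ, Subgroup.coe_mul, MulAut.mul_apply, ih, hst, pow_succ]
          group
      have hsj : s ^ j ∈ Subgroup.normalizer (Q : Set Ω) := Subgroup.pow_mem _ hsQ j
      refine ⟨t ^ j, Subgroup.pow_mem _ ht j, ?_, ?_⟩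
      · intro heq
        apply hj1
        have h1 := congrArg Subtype.val heq
        have h2 : s ^ j * (y : Ω) * (s ^ j)⁻¹ = y := (htj j y).symm.trans h1
        calc s ^ j * (y : Ω) = (s ^ j * (y : Ω) * (s ^ j)⁻¹) * s ^ j := by group
          _ = y * s ^ j := by rw [h2]
      · apply Subtype.ext
        have h1 : (((t ^ j) • (y ^ p ^ n) : Q) : Ω) = s ^ j * ((y ^ p ^ n : Q) : Ω) * (s ^ j)⁻¹ :=
          htj j _
        show (((t ^ j) • (y ^ p ^ n) : Q) : Ω) = ((y ^ p ^ n : Q) : Ω)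
        rw [h1]
        have hVab : ∀ a ∈ V, ∀ b ∈ V, a * b = b * a := fun a ha b hb =>
          Subgroup.mem_centralizer_iff.1 hb.2 a ha.1
        have hVn : ∀ v ∈ V, s ^ j * v * (s ^ j)⁻¹ ∈ V := by
          intro v hv
          refine ⟨(Subgroup.mem_normalizer_iff.1 hsj v).1 hv.1,
            Subgroup.mem_centralizer_iff.2 fun q hq => ?_⟩
          have hq' : (s ^ j)⁻¹ * q * s ^ j ∈ Q := by
            have := (Subgroup.mem_normalizer_iff.1 (Subgroup.inv_mem _ hsj) q).1 hq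
            simpa using this
          have h3 := Subgroup.mem_centralizer_iff.1 hv.2 _ hq'
          calc q * (s ^ j * v * (s ^ j)⁻¹) = s ^ j * (((s ^ j)⁻¹ * q * s ^ j) * v) * (s ^ j)⁻¹ := by
                group
            _ = s ^ j * (v * ((s ^ j)⁻¹ * q * s ^ j)) * (s ^ j)⁻¹ := by rw [h3]
            _ = s ^ j * v * (s ^ j)⁻¹ * q := by group
        have h4 := conj_pow_eq_of_class hp.out n V hVab (s ^ j) hVn (S.lowerCentralSeries) (by
            intro i v _ hv
            rw [Subgroup.lowerCentralSeries_succ]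
            have h5 : ⁅v, s ^ j⁆ ∈ ⁅S.lowerCentralSeries i, S⁆ :=
              Subgroup.commutator_mem_commutator hv (S.pow_mem hs j)
            have h6 := Subgroup.inv_mem _ h5
            rw [commutatorElement_inv, commutatorElement_def] at h6
            exact h6) hcl (y : Ω) hyV (hQ.1 y.2) (by
            rw [hj2, mul_inv_cancel_right])
        exact h4

end Cfsg.Agent.H774
end
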